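import Mathlib

/-! Covering relations in subgroup lattices: transport along `subgroupOf`, injective `map`,
surjective `comap`. -/

namespace Cfsg.Agent.Lib.Helper29

variable {G G' : Type*} [Group G] [Group G']

/-- For an injective homomorphism, `map` preserves and reflects the covering relation. -/
theorem map_covBy_map_iff {f : G →* G'} (hf : Function.Injective f) {A B : Subgroup G} :
    A.map f ⋖ B.map f ↔ A ⋖ B := by
  let e : Subgroup G ↪o Subgroup G' :=
    OrderEmbedding.ofMapLEIff (Subgroup.map f) (fun _ _ => Subgroup.map_le_map_iff_of_injective hf)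
  have hr : (Set.range e).OrdConnected := by
    constructor
    rintro _ ⟨a, rfl⟩ _ ⟨b, rfl⟩ c ⟨_, hc⟩
    refine ⟨c.comap f, ?_⟩
    change (c.comap f).map f = c
    rw [Subgroup.map_comap_eq, inf_eq_right]
    exact hc.trans (Subgroup.map_le_range f b)
  exact Set.OrdConnected.apply_covBy_apply_iff e hr

/-- For a surjective homomorphism, `comap` preserves and reflects the covering relation. -/
theorem comap_covBy_comap_iff {f : G →* G'} (hf : Function.Surjective f) {A B : Subgroup G'} :
    A.comap f ⋖ B.comap f ↔ A ⋖ B := by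
  let e : Subgroup G' ↪o Subgroup G :=
    OrderEmbedding.ofMapLEIff (Subgroup.comap f) (fun _ _ => Subgroup.comap_le_comap_of_surjective hf)
  have hr : (Set.range e).OrdConnected := by
    constructor
    rintro _ ⟨a, rfl⟩ _ ⟨b, rfl⟩ c ⟨hc, _⟩
    refine ⟨c.map f, ?_⟩
    change (c.map f).comap f = c
    apply Subgroup.comap_map_eq_self
    exact (Subgroup.ker_le_comap f a).trans hc
  exact Set.OrdConnected.apply_covBy_apply_iff e hr

theorem isCoatom_comap_iff {f : G →* G'} (hf : Function.Surjective f) {A : Subgroup G'} :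
    IsCoatom (A.comap f) ↔ IsCoatom A := by
  rw [← covBy_top_iff, ← covBy_top_iff, ← comap_covBy_comap_iff hf, Subgroup.comap_top]

/-- `A.subgroupOf T ⋖ B.subgroupOf T ↔ A ⋖ B` for `A, B ≤ T`. -/
theorem subgroupOf_covBy_subgroupOf_iff {A B T : Subgroup G} (hA : A ≤ T) (hB : B ≤ T) :
    A.subgroupOf T ⋖ B.subgroupOf T ↔ A ⋖ B := by
  rw [← map_covBy_map_iff T.subtype_injective, Subgroup.map_subgroupOf_eq_of_le hA,
    Subgroup.map_subgroupOf_eq_of_le hB]

/-- `H.subgroupOf M` is a maximal subgroup of `M` iff `M` covers `H`. -/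
theorem isCoatom_subgroupOf_iff {H M : Subgroup G} (h : H ≤ M) :
    IsCoatom (H.subgroupOf M) ↔ H ⋖ M := by
  rw [← covBy_top_iff, ← Subgroup.subgroupOf_self M, subgroupOf_covBy_subgroupOf_iff h le_rfl]

/-- Conjugation preserves the covering relation. -/
theorem map_mulEquiv_covBy_iff (e : G ≃* G') {A B : Subgroup G} :
    A.map e.toMonoidHom ⋖ B.map e.toMonoidHom ↔ A ⋖ B :=
  map_covBy_map_iff e.injective

theorem isCoatom_map_mulEquiv_iff (e : G ≃* G') {A : Subgroup G} :
    IsCoatom (A.map e.toMonoidHom) ↔ IsCoatom A := by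
  rw [← covBy_top_iff, ← covBy_top_iff, ← map_mulEquiv_covBy_iff e]
  have : (⊤ : Subgroup G).map e.toMonoidHom = ⊤ := by
    rw [← MonoidHom.range_eq_map, MonoidHom.range_eq_top]
    exact e.surjective
  rw [this]

end Cfsg.Agent.Lib.Helper29
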