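import Mathlib
import Cfsg.Agent.Lib.Helper29.IdxN2

/-!
Subgroups of index `n` of the symmetric group of degree `n` and automorphisms.
-/

set_option autoImplicit false

namespace Cfsg.Agent.Lib.Helper29

open Equiv Equiv.Perm

/-- a subgroup of index `n` is the preimage of a point stabiliser under an automorphism -/
theorem exists_aut_of_index {Ω : Type*} [Fintype Ω] [DecidableEq Ω] (h3 : 3 ≤ Fintype.card Ω)
    (H : Subgroup (Perm Ω)) (hH : H.index = Fintype.card Ω) :
    ∃ (θ : Perm Ω ≃* Perm Ω) (a₀ : Ω), ∀ h : Perm Ω, h ∈ H ↔ θ h a₀ = a₀ := by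
  classical
  let X := Perm Ω ⧸ H
  haveI : Fintype X := Fintype.ofFinite X
  have hX : Fintype.card X = Fintype.card Ω := by
    rw [← hH, Subgroup.index_eq_card, Nat.card_eq_fintype_card]
  let φ : Perm Ω →* Perm X := MulAction.toPermHom (Perm Ω) X
  have hinj : Function.Injective φ := by
    rw [← MonoidHom.ker_eq_bot_iff, ← Subgroup.normalCore_eq_ker]
    exact normalCore_eq_bot_of_index h3 H hH
  have hbij : Function.Bijective φ := by
    rw [Fintype.bijective_iff_injective_and_card]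
    exact ⟨hinj, by rw [Fintype.card_perm, Fintype.card_perm, hX]⟩
  let e : Perm Ω ≃* Perm X := MulEquiv.ofBijective φ hbij
  let x₀ : X := ((1 : Perm Ω) : Perm Ω ⧸ H)
  have hmem : ∀ h : Perm Ω, h ∈ H ↔ e h x₀ = x₀ := by
    intro h
    rw [← MulAction.stabilizer_quotient H]
    rfl
  let b : X ≃ Ω := Fintype.equivOfCardEq hX
  refine ⟨e.trans b.permCongrHom, b x₀, fun h => ?_⟩
  rw [hmem]
  change _ ↔ b ((e h) (b.symm (b x₀))) = b x₀
  rw [Equiv.symm_apply_apply, b.apply_eq_iff_eq]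

/-- if the inverse of `θ` preserves transpositions, preimages of point stabilisers fix a point -/
theorem exists_fixed_of_swaps {Ω : Type*} [Fintype Ω] [DecidableEq Ω] (h3 : 3 ≤ Fintype.card Ω)
    (θ : Perm Ω ≃* Perm Ω) (hsw : ∀ s : Perm Ω, s.IsSwap → (θ.symm s).IsSwap) (x₀ : Ω) :
    ∃ a : Ω, ∀ h : Perm Ω, θ h x₀ = x₀ → h a = a := by
  obtain ⟨y₁, y₂, hy₁, hy₂, h12⟩ : ∃ y₁ y₂ : Ω, y₁ ≠ x₀ ∧ y₂ ≠ x₀ ∧ y₁ ≠ y₂ := by
    have h2 : 2 < Fintype.card Ω := by omega
    obtain ⟨a, b, c, hab, hac, hbc⟩ := Fintype.two_lt_card_iff.1 h2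
    by_cases ha : a = x₀
    · exact ⟨b, c, fun h => hab (ha.trans h.symm), fun h => hac (ha.trans h.symm), hbc⟩
    · by_cases hb : b = x₀
      · exact ⟨a, c, ha, fun h => hbc (hb.trans h.symm), hac⟩
      · exact ⟨a, b, ha, hb, hab⟩
  obtain ⟨a, ha⟩ := star_lemma (θ.symm : Perm Ω ≃* Perm Ω).toMonoidHom θ.symm.injective hsw hy₁ hy₂ h12
  refine ⟨a, fun h hk => ?_⟩
  have hb : ∀ y, y ≠ x₀ → θ.symm (swap x₀ y) (h⁻¹ a) ≠ h⁻¹ a := by
    intro y hy hfix
    have hy' : θ h y ≠ x₀ := by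
      intro h0
      apply hy
      apply (θ h).injective
      rw [h0, hk]
    have h1 := ha (θ h y) hy'
    apply h1
    have h2 : swap x₀ (θ h y) = θ h * swap x₀ y * (θ h)⁻¹ := by
      rw [← swap_apply_apply, hk]
    change θ.symm (swap x₀ (θ h y)) a = a
    rw [h2, map_mul, map_mul, map_inv, MulEquiv.symm_apply_apply, Perm.mul_apply, Perm.mul_apply, hfix]
    simp
  by_contra hne
  have hne' : a ≠ h⁻¹ a := by
    intro h0
    apply hne
    conv_lhs => rw [h0]
    simp
  have t1 := eq_swap_of_moves (hsw _ ⟨x₀, y₁, hy₁.symm, rfl⟩) hne' (ha y₁ hy₁) (hb y₁ hy₁)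
  have t2 := eq_swap_of_moves (hsw _ ⟨x₀, y₂, hy₂.symm, rfl⟩) hne' (ha y₂ hy₂) (hb y₂ hy₂)
  have t3 := θ.symm.injective (t1.trans t2.symm)
  have t4 := congrArg (fun f : Perm Ω => f x₀) t3
  simp only [swap_apply_left] at t4
  exact h12 t4

theorem index_stabilizer_perm {Ω : Type*} [Fintype Ω] [DecidableEq Ω] (x : Ω) :
    (MulAction.stabilizer (Perm Ω) x).index = Fintype.card Ω := by
  rw [MulAction.index_stabilizer_of_transitive, Nat.card_eq_fintype_card]

/-- involutions of `S₆` with centraliser of order 48 -/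
def T3 {Ω : Type*} [Fintype Ω] [DecidableEq Ω] (s : Perm Ω) : Prop := s.cycleType = Multiset.replicate 3 2

theorem swap_or_T3_map {Ω : Type*} [Fintype Ω] [DecidableEq Ω] (h6 : Fintype.card Ω = 6)
    (e : Perm Ω ≃* Perm Ω) {s : Perm Ω} (hs : s.IsSwap ∨ T3 s) : (e s).IsSwap ∨ T3 (e s) := by
  have hos : orderOf s = 2 := by
    rcases hs with hs | hs
    · exact hs.orderOf
    · rw [← lcm_cycleType, hs]; decide
  have ho : orderOf (e s) = 2 := by
    rw [MulEquiv.orderOf_eq, hos]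
  obtain ⟨k, hk⟩ := cycleType_prime_order (σ := e s) (by rw [ho]; exact Nat.prime_two)
  rw [ho] at hk
  have hc : Nat.card (Subgroup.centralizer {s}) = Nat.card (Subgroup.centralizer {e s}) := by
    apply Nat.card_congr
    refine e.toEquiv.subtypeEquiv (fun x => ?_)
    simp only [Subgroup.mem_centralizer_singleton_iff, MulEquiv.toEquiv_eq_coe,
      MulEquiv.coe_toEquiv, ← map_mul, EmbeddingLike.apply_eq_iff_eq]
  have h48 : Nat.card (Subgroup.centralizer {s}) = 48 := by
    rw [nat_card_centralizer, h6]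
    rcases hs with hs | hs
    · rw [isSwap_iff_cycleType.1 hs]; decide
    · rw [hs]; decide
  rw [h48, nat_card_centralizer, hk, h6] at hc
  have hsum : (e s).cycleType.sum ≤ Fintype.card Ω := by
    rw [sum_cycleType]; exact Finset.card_le_univ _
  rw [hk, h6, Multiset.sum_replicate, smul_eq_mul] at hsum
  have hk3 : k < 3 := by omega
  interval_cases k
  · left
    rw [isSwap_iff_cycleType, hk]; rfl
  · exfalso
    revert hc; decide
  · right
    exact hk

end Cfsg.Agent.Lib.Helper29
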