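import Mathlib
import Cfsg.Agent.Lib.Helper29.IdxS6a

/-!
Automorphisms of `S₆`: either they preserve transpositions, or they interchange them with the
products of three disjoint transpositions.  Classification of the subgroups of index 6 relative
to a given exotic automorphism.
-/

set_option autoImplicit false

namespace Cfsg.Agent.Lib.Helper29

open Equiv Equiv.Perm

theorem cycleType_map_eq {Ω : Type*} [Fintype Ω] [DecidableEq Ω] (e : Perm Ω ≃* Perm Ω)
    {s t : Perm Ω} (h : s.cycleType = t.cycleType) : (e s).cycleType = (e t).cycleType := by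
  obtain ⟨c, hc⟩ := isConj_iff.1 ((isConj_iff_cycleType_eq).2 h)
  rw [← hc, map_mul, map_mul, map_inv, cycleType_conj]

theorem not_swap_and_T3 {Ω : Type*} [Fintype Ω] [DecidableEq Ω] {s : Perm Ω} (h1 : s.IsSwap)
    (h2 : T3 s) : False := by
  rw [isSwap_iff_cycleType] at h1
  rw [T3, h1] at h2
  revert h2; decide

theorem swaps_of_swap {Ω : Type*} [Fintype Ω] [DecidableEq Ω] (e : Perm Ω ≃* Perm Ω)
    {s₀ : Perm Ω} (h0 : s₀.IsSwap) (h1 : (e s₀).IsSwap) (s : Perm Ω) (hs : s.IsSwap) :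
    (e s).IsSwap := by
  rw [isSwap_iff_cycleType] at *
  rw [cycleType_map_eq e (hs.trans h0.symm), h1]

theorem swaps_symm_of_swap {Ω : Type*} [Fintype Ω] [DecidableEq Ω] (e : Perm Ω ≃* Perm Ω)
    {s₀ : Perm Ω} (h0 : s₀.IsSwap) (h1 : (e s₀).IsSwap) (s : Perm Ω) (hs : s.IsSwap) :
    (e.symm s).IsSwap := by
  rw [isSwap_iff_cycleType] at *
  rw [cycleType_map_eq e.symm (hs.trans h1.symm), MulEquiv.symm_apply_apply, h0]

/-- an automorphism sending transpositions to triple transpositions -/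
def Exo {Ω : Type*} [Fintype Ω] [DecidableEq Ω] (e : Perm Ω ≃* Perm Ω) : Prop :=
  ∀ s : Perm Ω, s.IsSwap → T3 (e s)

theorem exo_of_T3 {Ω : Type*} [Fintype Ω] [DecidableEq Ω] (e : Perm Ω ≃* Perm Ω)
    {s₀ : Perm Ω} (h0 : s₀.IsSwap) (h1 : T3 (e s₀)) : Exo e := by
  intro s hs
  rw [isSwap_iff_cycleType] at *
  rw [T3, cycleType_map_eq e (hs.trans h0.symm)]
  exact h1

theorem exists_swap' {Ω : Type*} [Fintype Ω] [DecidableEq Ω] (h6 : Fintype.card Ω = 6) :
    ∃ s : Perm Ω, s.IsSwap := by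
  obtain ⟨a, b, hab⟩ := Fintype.exists_pair_of_one_lt_card (α := Ω) (by omega)
  exact ⟨swap a b, a, b, hab, rfl⟩

theorem Exo.swap_of_T3 {Ω : Type*} [Fintype Ω] [DecidableEq Ω] (h6 : Fintype.card Ω = 6)
    {e : Perm Ω ≃* Perm Ω} (he : Exo e) {t : Perm Ω} (ht : T3 t) : (e t).IsSwap := by
  rcases swap_or_T3_map h6 e (Or.inr ht) with h | h
  · exact h
  · exfalso
    obtain ⟨s₀, h0⟩ := exists_swap' h6
    have h1 := cycleType_map_eq e.symm (h.trans (he s₀ h0).symm)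
    rw [MulEquiv.symm_apply_apply, MulEquiv.symm_apply_apply] at h1
    exact not_swap_and_T3 h0 (h1.symm.trans ht)

theorem Exo.symm_T3 {Ω : Type*} [Fintype Ω] [DecidableEq Ω] (h6 : Fintype.card Ω = 6)
    {e : Perm Ω ≃* Perm Ω} (he : Exo e) {s : Perm Ω} (hs : s.IsSwap) : T3 (e.symm s) := by
  rcases swap_or_T3_map h6 e.symm (Or.inl hs) with h | h
  · exfalso
    have h1 := he _ h
    rw [MulEquiv.apply_symm_apply] at h1
    exact not_swap_and_T3 hs h1
  · exact h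

theorem T3.apply_ne {Ω : Type*} [Fintype Ω] [DecidableEq Ω] (h6 : Fintype.card Ω = 6)
    {t : Perm Ω} (ht : T3 t) (a : Ω) : t a ≠ a := by
  have h1 := sum_cycleType t
  rw [ht] at h1
  have h2 : t.support = Finset.univ := by
    apply Finset.eq_univ_of_card
    rw [← h1, h6]; decide
  rw [← mem_support, h2]
  exact Finset.mem_univ a

/-- the exotic subgroups attached to an automorphism -/
def EStab {Ω : Type*} [DecidableEq Ω] (θ : Perm Ω ≃* Perm Ω) (a : Ω) : Subgroup (Perm Ω) :=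
  (MulAction.stabilizer (Perm Ω) a).comap θ.toMonoidHom

theorem mem_EStab {Ω : Type*} [DecidableEq Ω] (θ : Perm Ω ≃* Perm Ω) (a : Ω) (h : Perm Ω) :
    h ∈ EStab θ a ↔ θ h a = a := Iff.rfl

theorem index_EStab {Ω : Type*} [Fintype Ω] [DecidableEq Ω] (θ : Perm Ω ≃* Perm Ω) (a : Ω) :
    (EStab θ a).index = Fintype.card Ω := by
  rw [EStab, Subgroup.index_comap_of_surjective _ θ.surjective, index_stabilizer_perm]

theorem eq_EStab_of_index {Ω : Type*} [Fintype Ω] [DecidableEq Ω] (h3 : 3 ≤ Fintype.card Ω)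
    (H : Subgroup (Perm Ω)) (hH : H.index = Fintype.card Ω) :
    ∃ (θ : Perm Ω ≃* Perm Ω) (a₀ : Ω), H = EStab θ a₀ := by
  obtain ⟨θ, a₀, h⟩ := exists_aut_of_index h3 H hH
  exact ⟨θ, a₀, by ext x; rw [h, mem_EStab]⟩

theorem EStab_eq_stabilizer {Ω : Type*} [Fintype Ω] [DecidableEq Ω] (h3 : 3 ≤ Fintype.card Ω)
    (θ : Perm Ω ≃* Perm Ω) (hsw : ∀ s : Perm Ω, s.IsSwap → (θ.symm s).IsSwap) (x₀ : Ω) :
    ∃ a : Ω, EStab θ x₀ = MulAction.stabilizer (Perm Ω) a := by
  obtain ⟨a, ha⟩ := exists_fixed_of_swaps h3 θ hsw x₀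
  refine ⟨a, subgroup_eq_of_le_of_index_eq (fun h hh => ?_) ?_⟩
  · rw [MulAction.mem_stabilizer_iff]
    exact ha h hh
  · rw [index_EStab, index_stabilizer_perm]

/-- every subgroup of index 6 is a point stabiliser or comes from an exotic automorphism -/
theorem index_six_cases {Ω : Type*} [Fintype Ω] [DecidableEq Ω] (h6 : Fintype.card Ω = 6)
    (H : Subgroup (Perm Ω)) (hH : H.index = 6) :
    (∃ a : Ω, H = MulAction.stabilizer (Perm Ω) a) ∨
      ∃ (θ : Perm Ω ≃* Perm Ω) (a₀ : Ω), Exo θ ∧ H = EStab θ a₀ := by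
  obtain ⟨θ, a₀, rfl⟩ := eq_EStab_of_index (by omega) H (hH.trans h6.symm)
  obtain ⟨s₀, h0⟩ := exists_swap' h6
  rcases swap_or_T3_map h6 θ (Or.inl h0) with h | h
  · left
    exact EStab_eq_stabilizer (by omega) θ (swaps_symm_of_swap θ h0 h) a₀
  · right
    exact ⟨θ, a₀, exo_of_T3 θ h0 h, rfl⟩

theorem EStab_exo_eq {Ω : Type*} [Fintype Ω] [DecidableEq Ω] (h6 : Fintype.card Ω = 6)
    {θ₀ θ : Perm Ω ≃* Perm Ω} (h0 : Exo θ₀) (h1 : Exo θ) (a₀ : Ω) :
    ∃ a : Ω, EStab θ a₀ = EStab θ₀ a := by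
  let ρ : Perm Ω ≃* Perm Ω := θ₀.symm.trans θ
  have hρ : ∀ s : Perm Ω, s.IsSwap → (ρ.symm s).IsSwap := by
    intro s hs
    change (θ₀ (θ.symm s)).IsSwap
    exact h0.swap_of_T3 h6 (h1.symm_T3 h6 hs)
  obtain ⟨a, ha⟩ := exists_fixed_of_swaps (by omega) ρ hρ a₀
  refine ⟨a, subgroup_eq_of_le_of_index_eq (fun h hh => ?_) ?_⟩
  · rw [mem_EStab] at hh ⊢
    apply ha
    change θ (θ₀.symm (θ₀ h)) a₀ = a₀
    rw [MulEquiv.symm_apply_apply, hh]
  · rw [index_EStab, index_EStab]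

/-- classification of the subgroups of index 6 relative to a fixed exotic automorphism -/
theorem index_six_classify {Ω : Type*} [Fintype Ω] [DecidableEq Ω] (h6 : Fintype.card Ω = 6)
    {θ₀ : Perm Ω ≃* Perm Ω} (h0 : Exo θ₀) (H : Subgroup (Perm Ω)) (hH : H.index = 6) :
    (∃ a : Ω, H = MulAction.stabilizer (Perm Ω) a) ∨ ∃ a : Ω, H = EStab θ₀ a := by
  rcases index_six_cases h6 H hH with h | ⟨θ, a₀, h1, rfl⟩
  · exact Or.inl h
  · exact Or.inr (EStab_exo_eq h6 h0 h1 a₀)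

theorem not_swap_mem_EStab {Ω : Type*} [Fintype Ω] [DecidableEq Ω] (h6 : Fintype.card Ω = 6)
    {θ₀ : Perm Ω ≃* Perm Ω} (h0 : Exo θ₀) (a : Ω) {s : Perm Ω} (hs : s.IsSwap) :
    s ∉ EStab θ₀ a := by
  intro h
  exact (h0 s hs).apply_ne h6 a h

theorem exists_swap_mem_stabilizer {Ω : Type*} [Fintype Ω] [DecidableEq Ω]
    (h3 : 3 ≤ Fintype.card Ω) (a : Ω) :
    ∃ s : Perm Ω, s.IsSwap ∧ s ∈ MulAction.stabilizer (Perm Ω) a := by
  obtain ⟨y₁, y₂, hy₁, hy₂, h12⟩ : ∃ y₁ y₂ : Ω, y₁ ≠ a ∧ y₂ ≠ a ∧ y₁ ≠ y₂ := by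
    have h2 : 2 < Fintype.card Ω := by omega
    obtain ⟨x, b, c, hab, hac, hbc⟩ := Fintype.two_lt_card_iff.1 h2
    by_cases ha : x = a
    · exact ⟨b, c, fun h => hab (ha.trans h.symm), fun h => hac (ha.trans h.symm), hbc⟩
    · by_cases hb : b = a
      · exact ⟨x, c, ha, fun h => hbc (hb.trans h.symm), hac⟩
      · exact ⟨x, b, ha, hb, hab⟩
  refine ⟨swap y₁ y₂, ⟨y₁, y₂, h12, rfl⟩, ?_⟩
  rw [MulAction.mem_stabilizer_iff]
  exact swap_apply_of_ne_of_ne hy₁.symm hy₂.symm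

theorem stabilizer_perm_injective {Ω : Type*} [Fintype Ω] [DecidableEq Ω]
    (h3 : 3 ≤ Fintype.card Ω) :
    Function.Injective (fun a : Ω => MulAction.stabilizer (Perm Ω) a) := by
  intro a b hab
  by_contra hne
  obtain ⟨c, hca, hcb⟩ : ∃ c : Ω, c ≠ a ∧ c ≠ b := by
    have h2 : 2 < Fintype.card Ω := by omega
    obtain ⟨x, y, z, hxy, hxz, hyz⟩ := Fintype.two_lt_card_iff.1 h2
    by_cases hx : x = a ∨ x = b
    · by_cases hy : y = a ∨ y = b
      · refine ⟨z, ?_, ?_⟩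
        · rintro rfl
          rcases hx with hx | hx
          · exact hxz hx
          · rcases hy with hy | hy
            · exact hyz hy
            · exact hxy (hx.trans hy.symm)
        · rintro rfl
          rcases hx with hx | hx
          · rcases hy with hy | hy
            · exact hxy (hx.trans hy.symm)
            · exact hyz hy
          · exact hxz hx
      · push_neg at hy
        exact ⟨y, hy.1, hy.2⟩
    · push_neg at hx
      exact ⟨x, hx.1, hx.2⟩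
  have h1 : swap b c ∈ MulAction.stabilizer (Perm Ω) a := by
    rw [MulAction.mem_stabilizer_iff]
    exact swap_apply_of_ne_of_ne hne hca.symm
  have h2 : swap b c ∈ MulAction.stabilizer (Perm Ω) b := by
    have := hab
    simp only at this
    rw [← this]; exact h1
  rw [MulAction.mem_stabilizer_iff] at h2
  have h3 : swap b c b = c := swap_apply_left b c
  exact hcb (h3.symm.trans h2)

theorem EStab_injective {Ω : Type*} [Fintype Ω] [DecidableEq Ω]
    (h3 : 3 ≤ Fintype.card Ω) (θ : Perm Ω ≃* Perm Ω) :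
    Function.Injective (fun a : Ω => EStab θ a) := by
  intro a b hab
  exact stabilizer_perm_injective h3 (Subgroup.comap_injective (f := θ.toMonoidHom) θ.surjective hab)

end Cfsg.Agent.Lib.Helper29
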