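import Mathlib
import Cfsg.Agent.Lib.Helper29.IdxS6a

/-!
A transitive subgroup of index 6 in the symmetric group of degree 6, from the action of `S₅`
on its six Sylow 5-subgroups.
-/

set_option autoImplicit false

namespace Cfsg.Agent.Lib.Helper29

open Equiv Equiv.Perm

theorem card_sylow_five_S5 [Fact (Nat.Prime 5)] : Nat.card (Sylow 5 (Perm (Fin 5))) = 6 := by
  obtain ⟨P⟩ : Nonempty (Sylow 5 (Perm (Fin 5))) := inferInstance
  have h1 : Nat.card (Sylow 5 (Perm (Fin 5))) ≡ 1 [MOD 5] := card_sylow_modEq_one 5 (Perm (Fin 5))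
  have h2 : Nat.card (Sylow 5 (Perm (Fin 5))) ∣ (P : Subgroup (Perm (Fin 5))).index := P.card_dvd_index
  have h3 : ¬ 5 ∣ (P : Subgroup (Perm (Fin 5))).index := P.not_dvd_index
  have h4 := Subgroup.card_mul_index (P : Subgroup (Perm (Fin 5)))
  have h120 : Nat.card (Perm (Fin 5)) = 120 := by
    rw [Nat.card_perm, Nat.card_eq_fintype_card, Fintype.card_fin]; decide
  rw [h120] at h4
  obtain ⟨k, hk⟩ := (IsPGroup.iff_card (p := 5) (G := (P : Subgroup (Perm (Fin 5))))).1 P.isPGroup'
  rw [hk] at h4
  have hk1 : k = 1 := by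
    rcases k with _ | _ | k
    · exfalso; apply h3
      rw [pow_zero, one_mul] at h4
      rw [h4]; decide
    · rfl
    · exfalso
      have : (25 : ℕ) ∣ 120 := by
        rw [← h4, pow_succ, pow_succ]
        exact ⟨5 ^ k * (P : Subgroup (Perm (Fin 5))).index, by ring⟩
      revert this; decide
  subst hk1
  have h24 : (P : Subgroup (Perm (Fin 5))).index = 24 := by omega
  rw [h24] at h2
  have hle : Nat.card (Sylow 5 (Perm (Fin 5))) ≤ 24 := Nat.le_of_dvd (by norm_num) h2
  have hne1 : Nat.card (Sylow 5 (Perm (Fin 5))) ≠ 1 := by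
    intro hc
    haveI : Subsingleton (Sylow 5 (Perm (Fin 5))) := (Nat.card_eq_one_iff_unique.1 hc).1
    haveI hn : (P : Subgroup (Perm (Fin 5))).Normal := Sylow.normal_of_subsingleton P
    have hnt : Nontrivial (P : Subgroup (Perm (Fin 5))) := by
      rw [← Finite.one_lt_card_iff_nontrivial, hk]; norm_num
    have h5 := Equiv.Perm.alternatingGroup_le_of_normal (α := Fin 5)
      (by rw [Nat.card_eq_fintype_card, Fintype.card_fin]) hnt
    have h6 := Subgroup.index_dvd_of_le h5
    rw [alternatingGroup.index_eq_two, h24] at h6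
    revert h6; decide
  generalize Nat.card (Sylow 5 (Perm (Fin 5))) = c at *
  unfold Nat.ModEq at h1
  interval_cases c <;> first | rfl | (exfalso; revert h1 h2 hne1; decide)

/-- `S₆` has a transitive subgroup of index 6 -/
theorem exists_exotic_subgroup {Ω : Type*} [Fintype Ω] [DecidableEq Ω] (h6 : Fintype.card Ω = 6) :
    ∃ K : Subgroup (Perm Ω), K.index = 6 ∧ ∀ a : Ω, ∃ k ∈ K, k a ≠ a := by
  classical
  haveI : Fact (Nat.Prime 5) := ⟨by norm_num⟩
  let Y := Sylow 5 (Perm (Fin 5))
  haveI : Fintype Y := Fintype.ofFinite Y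
  have hY : Fintype.card Y = 6 := by
    rw [← Nat.card_eq_fintype_card]; exact card_sylow_five_S5
  let φ : Perm (Fin 5) →* Perm Y := MulAction.toPermHom (Perm (Fin 5)) Y
  have hinj : Function.Injective φ := by
    rw [← MonoidHom.ker_eq_bot_iff]
    by_contra hN
    have hnt : Nontrivial φ.ker := (Subgroup.nontrivial_iff_ne_bot _).2 hN
    have h5 := Equiv.Perm.alternatingGroup_le_of_normal (α := Fin 5)
      (by rw [Nat.card_eq_fintype_card, Fintype.card_fin]) hnt
    obtain ⟨P⟩ : Nonempty Y := inferInstance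
    have hle : φ.ker ≤ MulAction.stabilizer (Perm (Fin 5)) P := by
      intro g hg
      rw [MulAction.mem_stabilizer_iff]
      have : φ g P = P := by rw [MonoidHom.mem_ker.1 hg]; rfl
      exact this
    have h7 := Subgroup.index_dvd_of_le (h5.trans hle)
    rw [alternatingGroup.index_eq_two, MulAction.index_stabilizer_of_transitive,
      Nat.card_eq_fintype_card, hY] at h7
    revert h7; decide
  let b : Y ≃ Ω := Fintype.equivOfCardEq (hY.trans h6.symm)
  let ψ : Perm (Fin 5) →* Perm Ω := b.permCongrHom.toMonoidHom.comp φ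
  have hψ : Function.Injective ψ := b.permCongrHom.injective.comp hinj
  refine ⟨ψ.range, ?_, fun a => ?_⟩
  · have h1 := Subgroup.card_mul_index ψ.range
    have h2 : Nat.card ψ.range = 120 := by
      rw [← Nat.card_congr (MonoidHom.ofInjective hψ).toEquiv, Nat.card_perm,
        Nat.card_eq_fintype_card, Fintype.card_fin]; decide
    have h3 : Nat.card (Perm Ω) = 720 := by
      rw [Nat.card_perm, Nat.card_eq_fintype_card, h6]; decide
    rw [h2, h3] at h1
    omega
  · haveI : Nontrivial Y := Fintype.one_lt_card_iff_nontrivial.1 (by omega)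
    obtain ⟨y, hy⟩ := exists_ne (b.symm a)
    obtain ⟨g, hg⟩ := MulAction.exists_smul_eq (Perm (Fin 5)) (b.symm a) y
    refine ⟨ψ g, ⟨g, rfl⟩, fun h => ?_⟩
    have h1 : ψ g a = b (g • b.symm a) := rfl
    rw [h1, hg] at h
    apply hy
    rw [← h, Equiv.symm_apply_apply]

end Cfsg.Agent.Lib.Helper29
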