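import Mathlib
import Cfsg.Agent.Lib.Helper29.IdxS6b
import Cfsg.Agent.Lib.Helper29.IdxS6c

/-!
The twelve subgroups of index 6 of `S₆`.
-/

set_option autoImplicit false

namespace Cfsg.Agent.Lib.Helper29

open Equiv Equiv.Perm

theorem exists_exo {Ω : Type*} [Fintype Ω] [DecidableEq Ω] (h6 : Fintype.card Ω = 6) :
    ∃ θ₀ : Perm Ω ≃* Perm Ω, Exo θ₀ := by
  obtain ⟨K, hK, htr⟩ := exists_exotic_subgroup h6
  rcases index_six_cases h6 K hK with ⟨a, rfl⟩ | ⟨θ, a₀, h1, -⟩
  · exfalso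
    obtain ⟨k, hk, hne⟩ := htr a
    exact hne hk
  · exact ⟨θ, h1⟩

theorem stabilizer_ne_EStab {Ω : Type*} [Fintype Ω] [DecidableEq Ω] (h6 : Fintype.card Ω = 6)
    {θ₀ : Perm Ω ≃* Perm Ω} (h0 : Exo θ₀) (a b : Ω) :
    MulAction.stabilizer (Perm Ω) a ≠ EStab θ₀ b := by
  intro h
  obtain ⟨s, hs, hm⟩ := exists_swap_mem_stabilizer (by omega) a
  rw [h] at hm
  exact not_swap_mem_EStab h6 h0 b hs hm

theorem card_index_six {Ω : Type*} [Fintype Ω] [DecidableEq Ω] (h6 : Fintype.card Ω = 6) :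
    Nat.card {H : Subgroup (Perm Ω) // H.index = 6} = 12 := by
  obtain ⟨θ₀, h0⟩ := exists_exo h6
  let f : Ω ⊕ Ω → {H : Subgroup (Perm Ω) // H.index = 6} := fun x =>
    Sum.elim (fun a => ⟨MulAction.stabilizer (Perm Ω) a, (index_stabilizer_perm a).trans h6⟩)
      (fun a => ⟨EStab θ₀ a, (index_EStab θ₀ a).trans h6⟩) x
  have hf : Function.Bijective f := by
    constructor
    · rintro (a | a) (b | b) hab
      · have h1 : MulAction.stabilizer (Perm Ω) a = MulAction.stabilizer (Perm Ω) b :=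
          congrArg Subtype.val hab
        rw [stabilizer_perm_injective (by omega) h1]
      · exact absurd (congrArg Subtype.val hab) (stabilizer_ne_EStab h6 h0 a b)
      · exact absurd (congrArg Subtype.val hab).symm (stabilizer_ne_EStab h6 h0 b a)
      · have h1 : EStab θ₀ a = EStab θ₀ b := congrArg Subtype.val hab
        rw [EStab_injective (by omega) θ₀ h1]
    · rintro ⟨H, hH⟩
      rcases index_six_classify h6 h0 H hH with ⟨a, rfl⟩ | ⟨a, rfl⟩
      · exact ⟨Sum.inl a, rfl⟩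
      · exact ⟨Sum.inr a, rfl⟩
  rw [← Nat.card_congr (Equiv.ofBijective f hf), Nat.card_eq_fintype_card, Fintype.card_sum, h6]

/-- a point stabiliser is a symmetric group on the remaining points -/
theorem stabilizer_mulEquiv {Ω : Type*} [Fintype Ω] [DecidableEq Ω] (a : Ω) :
    Nonempty (MulAction.stabilizer (Perm Ω) a ≃* Perm {x : Ω // x ≠ a}) := by
  have hr : (ofSubtype : Perm {x : Ω // x ≠ a} →* Perm Ω).range = MulAction.stabilizer (Perm Ω) a := by
    ext f
    rw [MulAction.mem_stabilizer_iff]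
    constructor
    · rintro ⟨g, rfl⟩
      exact ofSubtype_apply_of_not_mem g (fun h => h rfl)
    · intro hf
      have hf' : f a = a := hf
      have h1 : ∀ x, f x ≠ a ↔ x ≠ a := by
        intro x
        rw [not_iff_not]
        constructor
        · intro h
          apply f.injective
          rw [h, hf']
        · rintro rfl
          exact hf'
      refine ⟨f.subtypePerm h1, ofSubtype_subtypePerm h1 ?_⟩
      intro x hx hxa
      exact hx (by rw [hxa, hf'])
  exact ⟨((MonoidHom.ofInjective (ofSubtype_injective (p := fun x : Ω => x ≠ a))).trans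
    (MulEquiv.subgroupCongr hr)).symm⟩

theorem EStab_mulEquiv {Ω : Type*} [Fintype Ω] [DecidableEq Ω] (θ : Perm Ω ≃* Perm Ω) (a : Ω) :
    Nonempty (EStab θ a ≃* MulAction.stabilizer (Perm Ω) a) := by
  have h : (EStab θ a).map θ.toMonoidHom = MulAction.stabilizer (Perm Ω) a := by
    ext x
    rw [Subgroup.mem_map_equiv, mem_EStab, MulEquiv.apply_symm_apply, MulAction.mem_stabilizer_iff]
    rfl
  exact ⟨(θ.subgroupMap (EStab θ a)).trans (MulEquiv.subgroupCongr h)⟩

theorem index_six_mulEquiv {Ω : Type*} [Fintype Ω] [DecidableEq Ω] (h6 : Fintype.card Ω = 6)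
    (H : Subgroup (Perm Ω)) (hH : H.index = 6) : Nonempty (H ≃* Perm (Fin 5)) := by
  obtain ⟨θ, a₀, rfl⟩ := eq_EStab_of_index (by omega) H (hH.trans h6.symm)
  obtain ⟨e1⟩ := EStab_mulEquiv θ a₀
  obtain ⟨e2⟩ := stabilizer_mulEquiv a₀
  have hc : Fintype.card {x : Ω // x ≠ a₀} = Fintype.card (Fin 5) := by
    rw [Fintype.card_subtype_compl, Fintype.card_subtype_eq, h6, Fintype.card_fin]
  exact ⟨(e1.trans e2).trans (Fintype.equivOfCardEq hc).permCongrHom⟩

theorem map_conj_EStab {Ω : Type*} [Fintype Ω] [DecidableEq Ω] (θ : Perm Ω ≃* Perm Ω) (a : Ω)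
    (g : Perm Ω) :
    Subgroup.map (MulAut.conj g).toMonoidHom (EStab θ a) = EStab θ (θ g a) := by
  ext x
  rw [Subgroup.mem_map_equiv, MulAut.conj_symm_apply, mem_EStab, mem_EStab, map_mul, map_mul,
    map_inv, Perm.mul_apply, Perm.mul_apply, Perm.inv_eq_iff_eq]

theorem two_classes_index_six {Ω : Type*} [Fintype Ω] [DecidableEq Ω] (h6 : Fintype.card Ω = 6) :
    ∃ H₁ H₂ : Subgroup (Equiv.Perm Ω), H₁.index = 6 ∧ H₂.index = 6 ∧
      (¬ ∃ g : Equiv.Perm Ω, Subgroup.map (MulAut.conj g).toMonoidHom H₁ = H₂) ∧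
      ∀ H : Subgroup (Equiv.Perm Ω), H.index = 6 →
        ∃ g : Equiv.Perm Ω, Subgroup.map (MulAut.conj g).toMonoidHom H₁ = H ∨
          Subgroup.map (MulAut.conj g).toMonoidHom H₂ = H := by
  obtain ⟨θ₀, h0⟩ := exists_exo h6
  obtain ⟨a⟩ : Nonempty Ω := Fintype.card_pos_iff.1 (by omega)
  refine ⟨MulAction.stabilizer (Perm Ω) a, EStab θ₀ a, (index_stabilizer_perm a).trans h6,
    (index_EStab θ₀ a).trans h6, ?_, ?_⟩
  · rintro ⟨g, hg⟩
    rw [← MulAction.stabilizer_smul_eq_stabilizer_map_conj] at hg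
    exact stabilizer_ne_EStab h6 h0 _ _ hg
  · intro H hH
    rcases index_six_classify h6 h0 H hH with ⟨b, rfl⟩ | ⟨b, rfl⟩
    · refine ⟨swap a b, Or.inl ?_⟩
      rw [← MulAction.stabilizer_smul_eq_stabilizer_map_conj, Perm.smul_def, swap_apply_left]
    · refine ⟨θ₀.symm (swap a b), Or.inr ?_⟩
      rw [map_conj_EStab, MulEquiv.apply_symm_apply, swap_apply_left]

theorem exists_index_six_ne_stabilizer {Ω : Type*} [Fintype Ω] [DecidableEq Ω]
    (h6 : Fintype.card Ω = 6) :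
    ∃ H : Subgroup (Perm Ω), H.index = 6 ∧ ∀ a : Ω, H ≠ MulAction.stabilizer (Perm Ω) a := by
  obtain ⟨K, hK, htr⟩ := exists_exotic_subgroup h6
  refine ⟨K, hK, fun a h => ?_⟩
  obtain ⟨k, hk, hne⟩ := htr a
  rw [h] at hk
  exact hne hk

end Cfsg.Agent.Lib.Helper29
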