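import Mathlib
import Cfsg.Agent.S0061

/-!
Permutational wreath products: perfect subgroups with solvable maximal subgroups of large derived length.
-/

set_option autoImplicit false

namespace Cfsg.Agent.Lib.Helper29

open SemidirectProduct
open scoped commutatorElement

section general

variable {G A : Type*} [Group G] [Group A]

/-- a homomorphism with image in the `m`-th derived subgroup shifts the derived series -/
theorem map_derivedSeries_le_add (f : A →* G) (m : ℕ) (h : f.range ≤ derivedSeries G m) (d : ℕ) :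
    (derivedSeries A d).map f ≤ derivedSeries G (m + d) := by
  induction d with
  | zero =>
    rw [derivedSeries_zero, ← MonoidHom.range_eq_map]
    exact h
  | succ d ih =>
    rw [derivedSeries_succ, Subgroup.map_commutator, ← add_assoc, derivedSeries_succ]
    exact Subgroup.commutator_mono ih ih

theorem derivedSeries_ne_bot_of {S : Type*} [Group S] (f : A →* G) (hf : Function.Injective f) (m : ℕ)
    (h : f.range ≤ derivedSeries G m) (pr : A →* S) (hpr : Function.Surjective pr) (d : ℕ)
    (hS : derivedSeries S d ≠ ⊥) : derivedSeries G (m + d) ≠ ⊥ := by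
  intro hG
  apply hS
  have h1 := map_derivedSeries_le_add f m h d
  rw [hG, le_bot_iff, Subgroup.map_eq_bot_iff_of_injective _ hf] at h1
  rw [← map_derivedSeries_eq hpr, h1, Subgroup.map_bot]

theorem isSolvable_pi' {Ω S : Type*} [Group S] [hS : Group.IsSolvable S] : Group.IsSolvable (Ω → S) := by
  obtain ⟨k, hk⟩ := (Group.isSolvable_def S).1 hS
  rw [Group.isSolvable_def]
  refine ⟨k, ?_⟩
  rw [eq_bot_iff]
  intro f hf
  rw [Subgroup.mem_bot]
  funext i
  have h1 := map_derivedSeries_le_derivedSeries (Pi.evalMonoidHom (fun _ : Ω => S) i) k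
  have h2 : Pi.evalMonoidHom (fun _ : Ω => S) i f ∈ derivedSeries S k := h1 ⟨f, hf, rfl⟩
  rw [hk, Subgroup.mem_bot] at h2
  exact h2

end general

variable {S T Ω : Type} [Group S] [Group T] [MulAction T Ω] [DecidableEq Ω]

/-- the permutational wreath product -/
abbrev Wr (S T Ω : Type) [Group S] [Group T] [MulAction T Ω] : Type :=
  (Ω → S) ⋊[(mulAutArrow : T →* MulAut (Ω → S))] T

/-- the element with `s` at `i` and `s⁻¹` at `j` -/
def wrE (i j : Ω) (s : S) : Ω → S := Pi.mulSingle i s * Pi.mulSingle j s⁻¹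

theorem mulAutArrow_mulSingle (σ : T) (i : Ω) (s : S) :
    (mulAutArrow : T →* MulAut (Ω → S)) σ (Pi.mulSingle i s) = Pi.mulSingle (σ • i) s := by
  funext a
  rw [mulAutArrow_apply_apply]
  change (Pi.mulSingle i s : Ω → S) (σ⁻¹ • a) = _
  rw [Pi.mulSingle_apply, Pi.mulSingle_apply]
  simp only [inv_smul_eq_iff]

theorem mulAutArrow_wrE (σ : T) (i j : Ω) (s : S) :
    (mulAutArrow : T →* MulAut (Ω → S)) σ (wrE i j s) = wrE (σ • i) (σ • j) s := by
  unfold wrE
  rw [map_mul, mulAutArrow_mulSingle, mulAutArrow_mulSingle]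

theorem wrE_mul_inv {i j k : Ω} (hij : i ≠ j) (hik : i ≠ k) (hkj : k ≠ j) (s : S) :
    wrE i j s * (wrE i k s)⁻¹ = wrE k j s := by
  funext a
  simp only [wrE, Pi.mul_apply, Pi.inv_apply, Pi.mulSingle_apply]
  by_cases h1 : a = i
  · subst h1
    simp [hij, hik, hik.symm]
  · by_cases h2 : a = j
    · subst h2
      simp [h1, hkj.symm, hkj]
    · by_cases h3 : a = k
      · subst h3
        simp [h1, h2]
      · simp [h1, h2, h3]

/-- commutator of a base element with a top element -/
theorem wr_comm (f : Ω → S) (σ : T) :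
    (⁅(inl f : Wr S T Ω), (inr σ : Wr S T Ω)⁆) = inl (f * ((mulAutArrow : T →* MulAut (Ω → S)) σ f)⁻¹) := by
  rw [commutatorElement_def, map_mul, map_inv, inl_aut, map_inv]
  group

/-- the subgroup generated by the `wrE` and the top group -/
def wrSub (S T Ω : Type) [Group S] [Group T] [MulAction T Ω] [DecidableEq Ω] : Subgroup (Wr S T Ω) :=
  Subgroup.closure ({x | ∃ (i j : Ω) (s : S), i ≠ j ∧ x = inl (wrE i j s)} ∪ Set.range inr)

theorem inl_wrE_mem {i j : Ω} (h : i ≠ j) (s : S) : (inl (wrE i j s) : Wr S T Ω) ∈ wrSub S T Ω :=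
  Subgroup.subset_closure (Or.inl ⟨i, j, s, h, rfl⟩)

theorem inr_mem_wrSub (σ : T) : (inr σ : Wr S T Ω) ∈ wrSub S T Ω :=
  Subgroup.subset_closure (Or.inr ⟨σ, rfl⟩)

theorem wrSub_le_commutator (hT : commutator T = ⊤)
    (h2 : ∀ k j : Ω, k ≠ j → ∃ i, i ≠ j ∧ i ≠ k ∧ ∃ σ : T, σ • i = i ∧ σ • j = k) :
    wrSub S T Ω ≤ ⁅wrSub S T Ω, wrSub S T Ω⁆ := by
  conv_lhs => unfold wrSub
  rw [Subgroup.closure_le]
  rintro x (⟨k, j, s, hkj, rfl⟩ | ⟨σ, rfl⟩)
  · obtain ⟨i, hij, hik, σ, h1, h3⟩ := h2 k j hkj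
    have := Subgroup.commutator_mem_commutator (inl_wrE_mem (T := T) hij s) (inr_mem_wrSub (S := S) (Ω := Ω) σ)
    rw [wr_comm, mulAutArrow_wrE, h1, h3, wrE_mul_inv hij hik hkj] at this
    exact this
  · have h1 : σ ∈ commutator T := by rw [hT]; trivial
    have h3 : (inr σ : Wr S T Ω) ∈ (commutator T).map (inr : T →* Wr S T Ω) := ⟨σ, h1, rfl⟩
    rw [commutator_def, Subgroup.map_commutator] at h3
    refine Subgroup.commutator_mono ?_ ?_ h3 <;>
    · rintro _ ⟨τ, -, rfl⟩
      exact inr_mem_wrSub τ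

theorem commutator_wrSub (hT : commutator T = ⊤)
    (h2 : ∀ k j : Ω, k ≠ j → ∃ i, i ≠ j ∧ i ≠ k ∧ ∃ σ : T, σ • i = i ∧ σ • j = k) :
    commutator (wrSub S T Ω) = ⊤ := by
  rw [eq_top_iff, ← Subgroup.map_le_map_iff_of_injective (wrSub S T Ω).subtype_injective,
    Subgroup.map_subtype_commutator, ← MonoidHom.range_eq_map, Subgroup.range_subtype]
  exact wrSub_le_commutator hT h2

omit [DecidableEq Ω] in
theorem finite_wr [Finite S] [Finite T] [Finite Ω] : Finite (Wr S T Ω) :=
  Finite.of_equiv _ (equivProd (φ := (mulAutArrow : T →* MulAut (Ω → S)))).symm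

omit [DecidableEq Ω] in
theorem isSolvable_comap_rightHom (T₁ : Subgroup T) [Group.IsSolvable S] [Group.IsSolvable T₁] :
    Group.IsSolvable (T₁.comap (rightHom : Wr S T Ω →* T)) := by
  haveI : Group.IsSolvable (Ω → S) := isSolvable_pi'
  refine Group.isSolvable_of_ker_le_range
    ((inl : (Ω → S) →* Wr S T Ω).codRestrict (T₁.comap (rightHom : Wr S T Ω →* T)) (fun f => by
      rw [Subgroup.mem_comap, rightHom_inl]; exact T₁.one_mem))
    ((rightHom : Wr S T Ω →* T).subgroupComap T₁) ?_
  intro x hx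
  have h1 : (rightHom : Wr S T Ω →* T) x.1 = 1 := by
    have := congrArg Subtype.val (MonoidHom.mem_ker.1 hx)
    exact this
  have h2 : x.1 ∈ (inl : (Ω → S) →* Wr S T Ω).range := by
    rw [range_inl_eq_ker_rightHom]; exact h1
  obtain ⟨f, hf⟩ := h2
  exact ⟨f, Subtype.ext hf⟩

omit [DecidableEq Ω] in
theorem isSolvable_wr [Group.IsSolvable S] [Group.IsSolvable T] : Group.IsSolvable (Wr S T Ω) := by
  haveI : Group.IsSolvable (Ω → S) := isSolvable_pi'
  exact Group.isSolvable_of_ker_le_range (inl : (Ω → S) →* Wr S T Ω) rightHom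
    (by rw [range_inl_eq_ker_rightHom])

theorem wrE_apply_left {i j : Ω} (h : i ≠ j) (s : S) : wrE i j s i = s := by
  simp [wrE, Pi.mulSingle_apply, h]

/-- finite solvable groups of arbitrarily large derived length -/
theorem exists_solvable_derivedSeries_ne_bot (d : ℕ) :
    ∃ (S : Type) (_ : Group S) (_ : Finite S), Group.IsSolvable S ∧ derivedSeries S d ≠ ⊥ := by
  have hP2 : Group.IsSolvable (Equiv.Perm (Fin 2)) := Group.isSolvable_of_comm (by decide)
  induction d with
  | zero =>
    refine ⟨Equiv.Perm (Fin 2), inferInstance, inferInstance, hP2, ?_⟩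
    rw [derivedSeries_zero]
    exact top_ne_bot
  | succ d ih =>
    obtain ⟨S, _, _, hS, hd⟩ := ih
    refine ⟨Wr S (Equiv.Perm (Fin 2)) (Fin 2), inferInstance, finite_wr, isSolvable_wr, ?_⟩
    let K : Subgroup (Fin 2 → S) :=
      (commutator (Wr S (Equiv.Perm (Fin 2)) (Fin 2))).comap inl
    have key := derivedSeries_ne_bot_of
      ((inl : (Fin 2 → S) →* Wr S (Equiv.Perm (Fin 2)) (Fin 2)).comp K.subtype)
      (inl_injective.comp K.subtype_injective) 1 (by
        rw [derivedSeries_one]
        rintro _ ⟨k, rfl⟩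
        exact k.2)
      ((Pi.evalMonoidHom (fun _ : Fin 2 => S) 0).comp K.subtype) (by
        intro s
        refine ⟨⟨wrE 0 1 s, ?_⟩, wrE_apply_left (by decide) s⟩
        change (inl (wrE 0 1 s) : Wr S (Equiv.Perm (Fin 2)) (Fin 2)) ∈ commutator _
        have h1 := wr_comm (T := Equiv.Perm (Fin 2)) (Pi.mulSingle (0 : Fin 2) s : Fin 2 → S)
          (Equiv.swap 0 1)
        rw [mulAutArrow_mulSingle] at h1
        have h2 : (Equiv.swap (0 : Fin 2) 1) • (0 : Fin 2) = 1 := by decide
        rw [h2, ← Pi.mulSingle_inv] at h1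
        have h3 : wrE (0 : Fin 2) 1 s = Pi.mulSingle 0 s * Pi.mulSingle 1 s⁻¹ := rfl
        rw [h3, ← h1, commutator_def]
        exact Subgroup.commutator_mem_commutator (Subgroup.mem_top _) (Subgroup.mem_top _)) d hd
    rwa [add_comm] at key

theorem isSolvable_stabilizer_A5 :
    Group.IsSolvable (MulAction.stabilizer (alternatingGroup (Fin 5)) (0 : Fin 5)) := by
  haveI := alternatingGroup.isPretransitive_of_three_le_card (Fin 5) (by simp)
  have h1 := Subgroup.card_mul_index (MulAction.stabilizer (alternatingGroup (Fin 5)) (0 : Fin 5))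
  rw [MulAction.index_stabilizer_of_transitive] at h1
  have h2 := two_mul_nat_card_alternatingGroup (α := Fin 5)
  have h3 : Nat.card (Equiv.Perm (Fin 5)) = 120 := by
    rw [Nat.card_perm]; simp; rfl
  have h4 : Nat.card (Fin 5) = 5 := by simp
  rw [h4] at h1
  apply Cfsg.Agent.S0061.result 2 3 2 (by norm_num) (by norm_num)
  omega

theorem exists_perfect_of_solvable (S : Type) [Group S] [Finite S] [Group.IsSolvable S] (d : ℕ)
    (hS : derivedSeries S d ≠ ⊥) :
    ∃ (G : Type) (_ : Group G) (_ : Finite G) (H : Subgroup G), commutator G = ⊤ ∧ IsCoatom H ∧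
      Group.IsSolvable H ∧ derivedSeries H d ≠ ⊥ := by
  let T := alternatingGroup (Fin 5)
  let E := wrSub S T (Fin 5)
  let π : E →* T := (rightHom : Wr S T (Fin 5) →* T).comp E.subtype
  have hπ : Function.Surjective π := fun σ =>
    ⟨⟨(inr σ : Wr S T (Fin 5)), inr_mem_wrSub σ⟩, (rightHom_inr σ : (rightHom : Wr S T (Fin 5) →* T) (inr σ) = σ)⟩
  let T₁ : Subgroup T := MulAction.stabilizer T (0 : Fin 5)
  haveI : Group.IsSolvable T₁ := isSolvable_stabilizer_A5
  haveI : Finite (Wr S T (Fin 5)) := finite_wr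
  haveI hprim := alternatingGroup.isPreprimitive_of_three_le_card (Fin 5) (by simp)
  have h2t : MulAction.IsMultiplyPretransitive T (Fin 5) 2 := by
    have := alternatingGroup.isMultiplyPretransitive (Fin 5)
    exact MulAction.isMultiplyPretransitive_of_le (n := Nat.card (Fin 5) - 2) (by simp) (by simp)
  refine ⟨E, inferInstance, inferInstance, T₁.comap π, ?_, ?_, ?_, ?_⟩
  · apply commutator_wrSub (commutator_alternatingGroup_eq_top (by simp))
    intro k j hkj
    obtain ⟨i, hij, hik⟩ : ∃ i : Fin 5, i ≠ j ∧ i ≠ k := by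
      revert k j; decide
    obtain ⟨σ, h1, h3⟩ := (MulAction.is_two_pretransitive_iff.1 h2t) hij hik
    exact ⟨i, hij, hik, σ, h1, h3⟩
  · exact Subgroup.isCoatom_comap_of_surjective hπ
      (MulAction.IsPreprimitive.isCoatom_stabilizer_of_isPreprimitive T (0 : Fin 5))
  · haveI := isSolvable_comap_rightHom (S := S) (Ω := Fin 5) T₁
    exact Group.isSolvable_of_isSolvable_injective
      (f := (E.subtype.comp (T₁.comap π).subtype).codRestrict
        (T₁.comap (rightHom : Wr S T (Fin 5) →* T)) (fun x => x.2))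
      (by
        intro x y hxy
        have := congrArg Subtype.val hxy
        exact Subtype.ext (Subtype.ext this))
  · let K : Subgroup (Fin 5 → S) := E.comap inl
    let f₁ : K →* E := ((inl : (Fin 5 → S) →* Wr S T (Fin 5)).comp K.subtype).codRestrict E (fun k => k.2)
    let f : K →* (T₁.comap π) := f₁.codRestrict (T₁.comap π) (fun k => by
      change (rightHom : Wr S T (Fin 5) →* T) (inl k.1) ∈ T₁
      rw [rightHom_inl]; exact T₁.one_mem)
    have key := derivedSeries_ne_bot_of f (by
        intro x y hxy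
        have h1 := congrArg (fun z => (z.1.1 : Wr S T (Fin 5))) hxy
        exact Subtype.ext (inl_injective h1)) 0 (by rw [derivedSeries_zero]; exact le_top)
      ((Pi.evalMonoidHom (fun _ : Fin 5 => S) 0).comp K.subtype) (by
        intro s
        exact ⟨⟨wrE 0 1 s, inl_wrE_mem (by decide) s⟩, wrE_apply_left (by decide) s⟩) d hS
    rwa [zero_add] at key

end Cfsg.Agent.Lib.Helper29
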